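import Cfsg.Agent.H514.DP.Core
import Cfsg.Agent.Blocks.Knorr
import Cfsg.Agent.H147.CharBound
import Cfsg.Agent.S0157

/-!
# Fixed points and the degrees of the irreducible characters

`card_fixedBy_le_of` : if the nontrivial irreducible characters of `G` have degree at least `d`, then an element `x`
with `|C(x)| ≤ c²` has at most `1 + (c / d) |Ω|` fixed points in a transitive action.
`card_fixedBy_le` : the same for a perfect group with `MinDeg G d`.
-/

set_option autoImplicit false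

namespace Cfsg.Agent.H514.RC

open Cfsg Cfsg.Agent.Characters Cfsg.Agent.Characters.Core

universe u

variable {G : Type u} [Group G] [Finite G]

/-- the general form -/
theorem card_fixedBy_le_of {d : ℕ} (hd : ∀ χ : IrrCharacter G, (χ : G → ℂ) ≠ 1 → ∃ n : ℕ, d ≤ n ∧ (χ : G → ℂ) 1 = n)
    {Ω : Type} [Finite Ω] [MulAction G Ω] [MulAction.IsPretransitive G Ω] (x : G) {c : ℕ}
    (hc : Nat.card ↥(Subgroup.centralizer ({x} : Set G)) ≤ c ^ 2) :
    d * Nat.card (MulAction.fixedBy Ω x) ≤ d + c * Nat.card Ω := by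
  classical
  have : Fintype G := Fintype.ofFinite G
  have : Finite (IrrCharacter G) := finite_irr
  have : Fintype (IrrCharacter G) := Fintype.ofFinite _
  rcases isEmpty_or_nonempty Ω with hY | hY
  · have h0 : Nat.card (MulAction.fixedBy Ω x) = 0 := by
      rw [Nat.card_eq_zero]
      left
      exact ⟨fun y => hY.elim y.1⟩
    rw [h0, mul_zero]
    exact Nat.zero_le _
  have hπc : IsCharacter G (fun g : G => (Nat.card (MulAction.fixedBy Ω g) : ℂ)) :=
    Cfsg.Agent.S0157.isCharacter_fixedBy Ω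
  obtain ⟨m, hm⟩ := exists_nat_comb hπc
  set o : IrrCharacter G := ⟨1, isIrr_one⟩ with ho
  have hmo : m o = 1 := by
    have h3 : classInner (fun g : G => (Nat.card (MulAction.fixedBy Ω g) : ℂ)) 1 = 1 := by
      have h4 := Cfsg.Agent.S0157.avg_fixedBy (G := G) Ω
      rw [Cfsg.Agent.S0157.card_orbits_of_pretransitive G Ω] at h4
      simpa [classInner] using h4
    have h4 := classInner_sum_nsmul_irr m o
    rw [← hm] at h4
    have h5 : ((m o : ℕ) : ℂ) = 1 := h4.symm.trans h3
    exact_mod_cast h5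
  have key : ∀ g : G, (Nat.card (MulAction.fixedBy Ω g) : ℂ) =
      1 + ∑ χ ∈ Finset.univ.erase o, (m χ : ℂ) * (χ : G → ℂ) g := by
    intro g
    have h5 := congrFun hm g
    simp only [Finset.sum_apply] at h5
    rw [h5, ← Finset.add_sum_erase Finset.univ _ (Finset.mem_univ o), hmo]
    congr 1
    · simp [ho]
    · exact Finset.sum_congr rfl fun χ _ => by simp
  choose! n hn hn1 using fun (χ : IrrCharacter G) (h : χ ∈ Finset.univ.erase o) =>
    hd χ (fun h2 => (Finset.mem_erase.1 h).1 (Subtype.ext h2))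
  have hsum : 1 + ∑ χ ∈ Finset.univ.erase o, m χ * n χ = Nat.card Ω := by
    have h5 := key 1
    have h6 : Nat.card (MulAction.fixedBy Ω (1 : G)) = Nat.card Ω := by
      rw [MulAction.fixedBy_one_eq_univ]
      exact Nat.card_univ
    rw [h6] at h5
    have h7 : ((1 + ∑ χ ∈ Finset.univ.erase o, m χ * n χ : ℕ) : ℂ) = (Nat.card Ω : ℂ) := by
      rw [h5]
      push_cast
      congr 1
      exact Finset.sum_congr rfl fun χ h => by rw [hn1 χ h]
    exact_mod_cast h7
  set M : ℕ := ∑ χ ∈ Finset.univ.erase o, m χ with hM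
  have hMd : d * M ≤ Nat.card Ω := by
    rw [hM, Finset.mul_sum]
    calc ∑ χ ∈ Finset.univ.erase o, d * m χ ≤ ∑ χ ∈ Finset.univ.erase o, m χ * n χ :=
          Finset.sum_le_sum fun χ h => by
            rw [mul_comm]
            exact Nat.mul_le_mul_left _ (hn χ h)
      _ ≤ Nat.card Ω := by omega
  have hval : (Nat.card (MulAction.fixedBy Ω x) : ℝ) ≤ 1 + c * M := by
    have h5 : ‖(Nat.card (MulAction.fixedBy Ω x) : ℂ)‖ ≤ 1 + ∑ χ ∈ Finset.univ.erase o, (m χ : ℝ) * c := by
      rw [key x]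
      refine (norm_add_le _ _).trans ?_
      rw [norm_one]
      refine add_le_add le_rfl ((norm_sum_le _ _).trans (Finset.sum_le_sum fun χ _ => ?_))
      rw [norm_mul, Complex.norm_natCast]
      refine mul_le_mul_of_nonneg_left ((H147.CharBound.norm_le_sqrt x χ).trans ?_) (Nat.cast_nonneg _)
      rw [Real.sqrt_le_left (Nat.cast_nonneg _)]
      exact_mod_cast hc
    rw [Complex.norm_natCast] at h5
    refine h5.trans (le_of_eq ?_)
    rw [hM, Nat.cast_sum, ← Finset.sum_mul, mul_comm]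
  have hval' : Nat.card (MulAction.fixedBy Ω x) ≤ 1 + c * M := by exact_mod_cast hval
  calc d * Nat.card (MulAction.fixedBy Ω x) ≤ d * (1 + c * M) := Nat.mul_le_mul_left _ hval'
    _ = d + c * (d * M) := by ring
    _ ≤ d + c * Nat.card Ω := Nat.add_le_add_left (Nat.mul_le_mul_left _ hMd) _

/-- perfect groups and `H514.DP.MinDeg` -/
theorem card_fixedBy_le (hperf : commutator G = ⊤) {d : ℕ} (_hd0 : 0 < d) (hd : H514.DP.MinDeg G d)
    {Ω : Type} [Finite Ω] [MulAction G Ω] [MulAction.IsPretransitive G Ω] (x : G) {c : ℕ}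
    (hc : Nat.card ↥(Subgroup.centralizer ({x} : Set G)) ≤ c ^ 2) :
    d * Nat.card (MulAction.fixedBy Ω x) ≤ d + c * Nat.card Ω := by
  refine card_fixedBy_le_of (fun χ h1 => ?_) x hc
  obtain ⟨n, h2, -, h3⟩ := hd.le χ.2 (fun h => h1 (H514.DP.eq_one_of_perf hperf χ.2 h))
  exact ⟨n, h2, h3⟩

/-- the form with `charDegree` (`H511.Ore.Deg.MinDeg`) -/
theorem card_fixedBy_le_deg {d : ℕ} (hd : ∀ χ : IrrCharacter G, (χ : G → ℂ) ≠ 1 → d ≤ charDegree (χ : G → ℂ))
    {Ω : Type} [Finite Ω] [MulAction G Ω] [MulAction.IsPretransitive G Ω] (x : G) {c : ℕ}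
    (hc : Nat.card ↥(Subgroup.centralizer ({x} : Set G)) ≤ c ^ 2) :
    d * Nat.card (MulAction.fixedBy Ω x) ≤ d + c * Nat.card Ω :=
  card_fixedBy_le_of (fun χ h1 => ⟨_, hd χ h1, Blocks.Knorr.charDegree_eq χ.2⟩) x hc

end Cfsg.Agent.H514.RC
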